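import Mathlib
import Cfsg.Agent.ThreeTransp.M22PairOrbit25
import Cfsg.Agent.ThreeTransp.M22Outer53
import Cfsg.Agent.ThreeTransp.M22Line43

/-!
Type M(22): an automorphism fixing a commuting pair and acting trivially on the pair group modulo
`E` is inner.
-/

set_option autoImplicit false

namespace CfsgLib.ThreeTransp.Pair25

open Cfsg CfsgLib.ThreeTransp.U62Point

universe u

variable {G : Type u} [Group G] {D : Set G}

/-- The product of two distinct commuting members is no member, if some member separates them. -/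
theorem mul_not_mem_of_sep (hD : IsThreeTranspositionSet D) {a y e : G} (ha : a ∈ D) (hy : y ∈ D)
    (he : e ∈ D) (hay : Commute a y) (hae : Commute a e) (hye : ¬ Commute y e) : a * y ∉ D := by
  intro h
  have hc : Commute a (y * e) := hay.mul_right hae
  rcases hD.2 _ h e he with h2 | h3
  · rw [mul_assoc, hc.mul_pow, pow_two a, tt_mul_self hD ha, one_mul, pow_two] at h2
    refine hye ?_
    show y * e = e * y
    calc y * e = (y * e)⁻¹ := eq_inv_of_mul_eq_one_left h2
      _ = e * y := by rw [mul_inv_rev, tt_inv hD he, tt_inv hD hy]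
  · refine tt_ne_one hD ha ?_
    rw [mul_assoc, hc.mul_pow, pow_succ, pow_two, tt_mul_self hD ha, one_mul] at h3
    have h3' : (y * e) ^ 3 = 1 := by
      rcases hD.2 y hy e he with h' | h'
      · exfalso
        refine hye ?_
        rw [pow_two] at h'
        show y * e = e * y
        calc y * e = (y * e)⁻¹ := eq_inv_of_mul_eq_one_left h'
          _ = e * y := by rw [mul_inv_rev, tt_inv hD he, tt_inv hD hy]
      · exact h'
    rwa [h3', mul_one] at h3

section m22

variable [Finite G] (hG : IsThreeTranspositionGroup D) (hp : IsPrimitiveUnderConj D)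
  (h22 : IsOfTypeM22 G D)
include hG hp h22

variable {a b : G} (ha : a ∈ D) (hb : b ∈ nbr D a) {C E : Subgroup G}
  (hE : PairStruct a b (Subgroup.centralizer ({a, b} : Set G)) C E)
include ha hb hE

theorem pair_exists_outside (F : Set G) (hF : F.ncard < 1024) : ∃ e ∈ E, e ∉ F := by
  by_contra h
  push Not at h
  have := Set.ncard_le_ncard (s := (E : Set G)) h (Set.toFinite _)
  rw [← Nat.card_coe_set_eq] at this
  change Nat.card ↥E ≤ _ at this
  rw [hE.card] at this
  omega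

theorem pair_ncard_V : (Subgroup.closure ({a, b} : Set G) : Set G).ncard ≤ 4 := by
  have hsub : (Subgroup.closure ({a, b} : Set G) : Set G) ⊆ {1, a, b, a * b} := fun x hx => by
    simpa using (pair_mem_V hG.1 ha hb.1 hb.2.2).1 hx
  refine (Set.ncard_le_ncard hsub (Set.toFinite _)).trans ((Set.ncard_insert_le _ _).trans ?_)
  refine Nat.succ_le_succ ((Set.ncard_insert_le _ _).trans ?_)
  refine Nat.succ_le_succ ((Set.ncard_insert_le _ _).trans ?_)
  rw [Set.ncard_singleton]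

/-- An automorphism trivial on the pair group modulo `E`, with square trivial on `E` modulo the
centre, is trivial on `E` modulo the centre. -/
theorem pair_aut_mod_V (t : MulAut G)
    (ht : ∀ k ∈ Subgroup.centralizer ({a, b} : Set G), t k * k⁻¹ ∈ E)
    (htV : ∀ v ∈ Subgroup.closure ({a, b} : Set G), t v ∈ Subgroup.closure ({a, b} : Set G))
    (hsq : ∀ e ∈ E, t (t e) * e⁻¹ ∈ Subgroup.closure ({a, b} : Set G)) :
    ∀ e ∈ E, t e * e⁻¹ ∈ Subgroup.closure ({a, b} : Set G) := by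
  classical
  obtain ⟨V, hV⟩ : ∃ V, V = Subgroup.closure ({a, b} : Set G) := ⟨_, rfl⟩
  rw [← hV] at htV hsq ⊢
  have hVE : V ≤ E := hV ▸ hE.hV
  have hVc : ∀ v ∈ V, ∀ k ∈ Subgroup.centralizer ({a, b} : Set G), Commute v k := fun v hv k hk =>
    commute_closure_iff.2 (fun s hs => Subgroup.mem_centralizer_iff.1 hk s hs) v (hV ▸ hv)
  have habV : a * b ∈ V :=
    hV ▸ mul_mem (Subgroup.subset_closure (by simp)) (Subgroup.subset_closure (by simp))
  have hsqV : ∀ x ∈ E, x * x ∈ V := fun x hx => by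
    rcases hE.sq x hx with e | e <;> rw [pow_two] at e <;> rw [e]
    exacts [one_mem _, habV]
  have hcV : ∀ x ∈ E, ∀ y ∈ E, x * y * x⁻¹ * y⁻¹ ∈ V := fun x hx y hy => by
    rcases hE.comm x hx y hy with e | e <;> rw [e]
    exacts [one_mem _, habV]
  have hEK := hE.hEK
  have htE : ∀ e ∈ E, t e ∈ E := fun e he => by
    have := mul_mem (ht e (hEK he)) he
    rwa [inv_mul_cancel_right] at this
  let W : Subgroup G :=
    { carrier := {e | e ∈ E ∧ t e * e⁻¹ ∈ V}
      one_mem' := ⟨one_mem _, by simp⟩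
      mul_mem' := by
        rintro x y ⟨hx, hx'⟩ ⟨hy, hy'⟩
        refine ⟨mul_mem hx hy, ?_⟩
        rw [show t (x * y) * (x * y)⁻¹ = t x * (t y * y⁻¹) * x⁻¹ by rw [map_mul]; group,
          ← (hVc _ hy' _ (hEK (htE x hx))).eq, mul_assoc]
        exact mul_mem hy' hx'
      inv_mem' := by
        rintro x ⟨hx, hx'⟩
        refine ⟨inv_mem hx, ?_⟩
        rw [map_inv, show (t x)⁻¹ * x⁻¹⁻¹ = x⁻¹ * (t x * x⁻¹)⁻¹ * x by group,
          ← (hVc _ (inv_mem hx') _ (hEK (inv_mem hx))).eq, inv_mul_cancel_right]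
        exact inv_mem hx' }
  have hWE : W ≤ E := fun x hx => hx.1
  have hVW : Subgroup.closure ({a, b} : Set G) ≤ W := by
    rw [← hV]
    exact fun v hv => ⟨hVE hv, mul_mem (htV v hv) (inv_mem hv)⟩
  have hconj : ∀ k ∈ Subgroup.centralizer ({a, b} : Set G), ∀ w ∈ E, k * w * k⁻¹ ∈ E :=
    fun k hk w hw => hE.normal.conj_mem ⟨w, hE.le (hEK hw)⟩ hw ⟨k, hE.le hk⟩
  have hWK : ∀ k ∈ Subgroup.centralizer ({a, b} : Set G), ∀ w ∈ W, k * w * k⁻¹ ∈ W := by
    rintro k hk w ⟨hw, hw'⟩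
    refine ⟨hconj k hk w hw, ?_⟩
    obtain ⟨e, he, htk⟩ : ∃ e ∈ E, t k = e * k := ⟨_, ht k hk, by rw [inv_mul_cancel_right]⟩
    obtain ⟨v, hv, htw⟩ : ∃ v ∈ V, t w = v * w := ⟨_, hw', by rw [inv_mul_cancel_right]⟩
    rw [map_mul, map_mul, map_inv, htk, htw,
      show e * k * (v * w) * (e * k)⁻¹ * (k * w * k⁻¹)⁻¹ =
        e * (k * v) * w * k⁻¹ * e⁻¹ * (k * w * k⁻¹)⁻¹ by group,
      ← (hVc v hv k hk).eq,
      show e * (v * k) * w * k⁻¹ * e⁻¹ * (k * w * k⁻¹)⁻¹ =
        e * v * e⁻¹ * (e * (k * w * k⁻¹) * e⁻¹ * (k * w * k⁻¹)⁻¹) by group,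
      ← (hVc v hv e (hEK he)).eq, mul_inv_cancel_right]
    exact mul_mem hv (hcV e he _ (hconj k hk w hw))
  obtain ⟨x, hx, hxV⟩ := pair_exists_outside hG hp h22 ha hb hE (V : Set G) (by
    have := pair_ncard_V hG hp h22 ha hb hE
    rw [← hV] at this
    omega)
  have hW : W = E := by
    refine pair_invariant_top hG hp h22 ha hb hE W hWE hVW hWK ?_
    rw [← hV]
    by_cases hy : x * t x ∈ V
    · refine ⟨x, ⟨hx, ?_⟩, hxV⟩
      have e : t x * x⁻¹ = x⁻¹ * (x * t x) * x⁻¹ := by group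
      rw [e, ← (hVc _ hy _ (hEK (inv_mem hx))).eq, mul_assoc]
      exact mul_mem hy (hsqV _ (inv_mem hx))
    · refine ⟨x * t x, ⟨mul_mem hx (htE x hx), ?_⟩, hy⟩
      obtain ⟨v, hv, htt⟩ : ∃ v ∈ V, t (t x) = v * x := ⟨_, hsq x hx, by rw [inv_mul_cancel_right]⟩
      rw [map_mul, htt, show t x * (v * x) * (x * t x)⁻¹ = t x * v * (x * (t x)⁻¹ * x⁻¹) by group,
        ← (hVc v hv _ (hEK (htE x hx))).eq, show v * t x * (x * (t x)⁻¹ * x⁻¹) =
          v * (t x * x * (t x)⁻¹ * x⁻¹) by group]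
      exact mul_mem hv (hcV _ (htE x hx) x hx)
  intro e he
  rw [← hW] at he
  exact he.2

/-- An automorphism moving `E` inside `S ≤ V` on a subgroup of index two. -/
theorem pair_aut_mod_sub (t : MulAut G) (S : Subgroup G)
    (hSV : S ≤ Subgroup.closure ({a, b} : Set G))
    (h2 : ∀ v ∈ Subgroup.closure ({a, b} : Set G), ∀ w ∈ Subgroup.closure ({a, b} : Set G),
      v ∉ S → w ∉ S → v * w ∈ S)
    (hV : ∀ v ∈ Subgroup.closure ({a, b} : Set G), t v * v⁻¹ ∈ S)
    (hE1 : ∀ e ∈ E, t e * e⁻¹ ∈ Subgroup.closure ({a, b} : Set G))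
    (hinv : ∀ k ∈ Subgroup.centralizer ({a, b} : Set G), ∀ w ∈ E, t w * w⁻¹ ∈ S →
      t (k * w * k⁻¹) * (k * w * k⁻¹)⁻¹ ∈ S) :
    ∀ e ∈ E, t e * e⁻¹ ∈ S := by
  classical
  have hVc : ∀ v ∈ Subgroup.closure ({a, b} : Set G), ∀ k ∈ Subgroup.centralizer ({a, b} : Set G),
      Commute v k := fun v hv k hk =>
    commute_closure_iff.2 (fun s hs => Subgroup.mem_centralizer_iff.1 hk s hs) v hv
  have hEK := hE.hEK
  have htE : ∀ e ∈ E, t e ∈ E := fun e he => by
    have := mul_mem (hE.hV (hE1 e he)) he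
    rwa [inv_mul_cancel_right] at this
  have hmul : ∀ x ∈ E, ∀ y ∈ E, t (x * y) * (x * y)⁻¹ = t y * y⁻¹ * (t x * x⁻¹) := by
    intro x hx y hy
    rw [show t (x * y) * (x * y)⁻¹ = t x * (t y * y⁻¹) * x⁻¹ by rw [map_mul]; group,
      ← (hVc _ (hE1 y hy) _ (hEK (htE x hx))).eq, mul_assoc]
  let W : Subgroup G :=
    { carrier := {e | e ∈ E ∧ t e * e⁻¹ ∈ S}
      one_mem' := ⟨one_mem _, by simp⟩
      mul_mem' := by
        rintro x y ⟨hx, hx'⟩ ⟨hy, hy'⟩
        exact ⟨mul_mem hx hy, by rw [hmul x hx y hy]; exact mul_mem hy' hx'⟩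
      inv_mem' := by
        rintro x ⟨hx, hx'⟩
        refine ⟨inv_mem hx, ?_⟩
        have h := hmul x hx x⁻¹ (inv_mem hx)
        rw [mul_inv_cancel, map_one, inv_one, one_mul] at h
        rw [eq_inv_of_mul_eq_one_left h.symm]
        exact inv_mem hx' }
  have hW : W = E := by
    refine pair_invariant_top hG hp h22 ha hb hE W (fun x hx => hx.1) (fun v hv => ⟨hE.hV hv, hV v hv⟩)
      ?_ ?_
    · rintro k hk w ⟨hw, hw'⟩
      exact ⟨hE.normal.conj_mem ⟨w, hE.le (hEK hw)⟩ hw ⟨k, hE.le hk⟩, hinv k hk w hw hw'⟩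
    · by_contra hcon
      push Not at hcon
      have hn := pair_ncard_V hG hp h22 ha hb hE
      obtain ⟨x, hx, hxV⟩ := pair_exists_outside hG hp h22 ha hb hE
        (Subgroup.closure ({a, b} : Set G) : Set G) (by omega)
      obtain ⟨y, hy, hyV⟩ := pair_exists_outside hG hp h22 ha hb hE
        ((Subgroup.closure ({a, b} : Set G) : Set G) ∪
          (fun v => x⁻¹ * v) '' (Subgroup.closure ({a, b} : Set G) : Set G)) (by
        refine lt_of_le_of_lt ((Set.ncard_union_le _ _).trans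
          (add_le_add le_rfl (Set.ncard_image_le (Set.toFinite _)))) ?_
        omega)
      simp only [Set.mem_union, not_or] at hyV
      have hxy : x * y ∈ W := by
        refine ⟨mul_mem hx hy, ?_⟩
        rw [hmul x hx y hy]
        exact h2 _ (hE1 y hy) _ (hE1 x hx) (fun h => hyV.1 (hcon y ⟨hy, h⟩))
          fun h => hxV (hcon x ⟨hx, h⟩)
      exact hyV.2 ⟨x * y, hcon _ hxy, by group⟩
  intro e he
  rw [← hW] at he
  exact he.2

set_option maxHeartbeats 800000 in
/-- The rigidity statement. -/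
theorem pair_rigid (s : MulAut G) (hsa : s a = a) (hsb : s b = b)
    (hs : ∀ k ∈ Subgroup.centralizer ({a, b} : Set G), s k * k⁻¹ ∈ E)
    (hsq : ∀ e ∈ E, s (s e) * e⁻¹ ∈ Subgroup.closure ({a, b} : Set G)) :
    ∃ g : G, s = MulAut.conj g := by
  classical
  have hD := hG.1
  have hab := hb.2.2
  obtain ⟨V, hV⟩ : ∃ V, V = Subgroup.closure ({a, b} : Set G) := ⟨_, rfl⟩
  have haV : a ∈ V := hV ▸ Subgroup.subset_closure (by simp)
  have hbV : b ∈ V := hV ▸ Subgroup.subset_closure (by simp)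
  have hVc : ∀ v ∈ V, ∀ k ∈ Subgroup.centralizer ({a, b} : Set G), Commute v k := fun v hv k hk =>
    commute_closure_iff.2 (fun s hs => Subgroup.mem_centralizer_iff.1 hk s hs) v (hV ▸ hv)
  have hsV : ∀ v ∈ V, s v = v := fun v hv => by
    have h : V ≤ MonoidHom.eqLocus s.toMonoidHom (MonoidHom.id G) := by
      rw [hV, Subgroup.closure_le]
      rintro x (rfl | rfl)
      exacts [hsa, hsb]
    exact h hv
  have hs1 := pair_aut_mod_V hG hp h22 ha hb hE s hs (fun v hv => by rw [hsV v (hV ▸ hv)]; exact hv)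
    hsq
  have hEK := hE.hEK
  have hconjE : ∀ k ∈ Subgroup.centralizer ({a, b} : Set G), ∀ w ∈ E, k * w * k⁻¹ ∈ E :=
    fun k hk w hw => hE.normal.conj_mem ⟨w, hE.le (hEK hw)⟩ hw ⟨k, hE.le hk⟩
  -- adjust to fix a far point
  obtain ⟨f, hfa, hfb⟩ : {f | f ∈ nbr D a ∧ ¬ Commute f b}.Nonempty :=
    Set.nonempty_of_ncard_ne_zero (by rw [pair_far_ncard hG hp h22 ha hb hE]; norm_num)
  have hnbr : ∀ (u : MulAut G), u a = a → ∀ y ∈ nbr D a, u y ∈ nbr D a := fun u hu y hy =>
    ⟨m22_aut_mem hG hp h22 u hy.1, fun e => hy.2.1 (u.injective (e.trans hu.symm)),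
      by have := hy.2.2.map u.toMonoidHom; rwa [MulEquiv.coe_toMonoidHom, hu] at this⟩
  have hfar : ¬ Commute (s f) b := fun h => hfb (by
    have := h.map (s⁻¹ : MulAut G).toMonoidHom
    rwa [MulEquiv.coe_toMonoidHom, ← MulAut.mul_apply, inv_mul_cancel, MulAut.one_apply,
      show (s⁻¹ : MulAut G) b = b from s.injective (by
        rw [← MulAut.mul_apply, mul_inv_cancel, MulAut.one_apply, hsb])] at this)
  obtain ⟨e₀, he₀, hef⟩ := pair_transitive hG hp h22 ha hb hE (hnbr s hsa f hfa) hfar hfa hfb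
  obtain ⟨t, ht⟩ : ∃ t : MulAut G, t = MulAut.conj e₀ * s := ⟨_, rfl⟩
  have htx : ∀ x, t x = e₀ * s x * e₀⁻¹ := fun x => by rw [ht, MulAut.mul_apply, MulAut.conj_apply]
  have hfix₀ : ∀ v ∈ V, t v = v := fun v hv => by
    rw [htx, hsV v hv, ← (hVc v hv e₀ (hEK he₀)).eq, mul_inv_cancel_right]
  have hta : t a = a := hfix₀ a haV
  have htb : t b = b := hfix₀ b hbV
  have htf : t f = f := by rw [htx, hef]
  have htk : ∀ k ∈ Subgroup.centralizer ({a, b} : Set G), t k * k⁻¹ ∈ E := by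
    intro k hk
    rw [htx, show e₀ * s k * e₀⁻¹ * k⁻¹ = e₀ * (s k * k⁻¹) * (k * e₀⁻¹ * k⁻¹) by group]
    exact mul_mem (mul_mem he₀ (hs k hk)) (hconjE k hk _ (inv_mem he₀))
  have ht1 : ∀ e ∈ E, t e * e⁻¹ ∈ Subgroup.closure ({a, b} : Set G) := by
    intro e he
    rw [← hV]
    obtain ⟨v, hv, hse⟩ : ∃ v ∈ V, s e = v * e :=
      ⟨_, hV ▸ hs1 e he, by rw [inv_mul_cancel_right]⟩
    rw [htx, hse, show e₀ * (v * e) * e₀⁻¹ * e⁻¹ = e₀ * v * e₀⁻¹ * (e₀ * e * e₀⁻¹ * e⁻¹) by group,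
      ← (hVc v hv e₀ (hEK he₀)).eq, mul_inv_cancel_right]
    refine mul_mem hv ?_
    rcases hE.comm e₀ he₀ e he with h | h <;> rw [h]
    exacts [one_mem _, mul_mem haV hbV]
  -- `t` on the stabilizer of `f`
  have hk0 : ∀ k ∈ Subgroup.centralizer ({a, b} : Set G), Commute k f →
      t k * k⁻¹ ∈ Subgroup.zpowers a := by
    intro k hk hkf
    have h1 : Commute (t k) f := by
      have := hkf.map t.toMonoidHom; rwa [MulEquiv.coe_toMonoidHom, htf] at this
    rcases pair_free hG hp h22 ha hb hE hfa hfb _ (htk k hk) (h1.mul_left hkf.inv_left) with h | h <;>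
      rw [h]
    exacts [one_mem _, Subgroup.mem_zpowers a]
  have hdec : ∀ k ∈ Subgroup.centralizer ({a, b} : Set G), ∃ e ∈ E,
      ∃ k₀ ∈ Subgroup.centralizer ({a, b} : Set G), Commute k₀ f ∧ k = e * k₀ := by
    intro k hk
    have h1 : k * a * k⁻¹ = a := by
      rw [(mem_centralizer_pair.1 hk).1.eq, mul_inv_cancel_right]
    have h2 : k * b * k⁻¹ = b := by
      rw [(mem_centralizer_pair.1 hk).2.eq, mul_inv_cancel_right]
    have hn := nbr_conj hG k hfa
    rw [h1] at hn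
    have hnf : ¬ Commute (k * f * k⁻¹) b := by rw [← h2]; exact fun h => hfb (commute_conj_iff'.1 h)
    obtain ⟨e, he, hek⟩ := pair_transitive hG hp h22 ha hb hE hfa hfb hn hnf
    refine ⟨e, he, e⁻¹ * k, mul_mem (hEK (inv_mem he)) hk, ?_, by group⟩
    show e⁻¹ * k * f = f * (e⁻¹ * k)
    calc e⁻¹ * k * f = e⁻¹ * (k * f * k⁻¹) * k := by group
      _ = f * (e⁻¹ * k) := by rw [← hek]; group
  have hzV : Subgroup.zpowers a ≤ Subgroup.closure ({a, b} : Set G) :=
    Subgroup.zpowers_le.2 (hV ▸ haV)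
  have hbz : ∀ v ∈ Subgroup.closure ({a, b} : Set G), v ∉ Subgroup.zpowers a → v = b ∨ v = a * b := by
    intro v hv h
    rcases (pair_mem_V hD ha hb.1 hab).1 hv with e | e | e | e
    · exact absurd (e ▸ one_mem _) h
    · exact absurd (e ▸ Subgroup.mem_zpowers a) h
    · exact Or.inl e
    · exact Or.inr e
  have ht2 : ∀ e ∈ E, t e * e⁻¹ ∈ Subgroup.zpowers a := by
    refine pair_aut_mod_sub hG hp h22 ha hb hE t _ hzV ?_ ?_ ht1 ?_
    · intro v hv w hw hv' hw'
      rcases hbz v hv hv' with rfl | rfl <;> rcases hbz w hw hw' with rfl | rfl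
      · rw [tt_mul_self hD hb.1]; exact one_mem _
      · rw [← mul_assoc, ← hab.eq, mul_assoc, tt_mul_self hD hb.1, mul_one]
        exact Subgroup.mem_zpowers a
      · rw [mul_assoc, tt_mul_self hD hb.1, mul_one]; exact Subgroup.mem_zpowers a
      · rw [show a * b * (a * b) = a * (b * a) * b by group, ← hab.eq, ← mul_assoc a,
          tt_mul_self hD ha, one_mul, tt_mul_self hD hb.1]
        exact one_mem _
    · intro v hv
      rw [hfix₀ v (hV ▸ hv), mul_inv_cancel]
      exact one_mem _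
    · intro k hk w hw hw'
      obtain ⟨e, he, k₀, hk₀, hk₀f, rfl⟩ := hdec k hk
      obtain ⟨u, hu, hte⟩ : ∃ u ∈ V, t e = u * e := ⟨_, hV ▸ ht1 e he, by rw [inv_mul_cancel_right]⟩
      obtain ⟨u', hu', htk₀⟩ : ∃ u' ∈ V, t k₀ = u' * k₀ :=
        ⟨_, hV ▸ hzV (hk0 k₀ hk₀ hk₀f), by rw [inv_mul_cancel_right]⟩
      obtain ⟨u'', hu'', htw⟩ : ∃ u'' ∈ Subgroup.zpowers a, t w = u'' * w :=
        ⟨_, hw', by rw [inv_mul_cancel_right]⟩
      obtain ⟨z, hz⟩ : ∃ z, u * e * (u' * k₀) = z * (e * k₀) ∧ z ∈ V :=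
        ⟨u * u', by rw [show u * e * (u' * k₀) = u * (e * u') * k₀ by group,
          ← (hVc u' hu' e (hEK he)).eq]; group, mul_mem hu hu'⟩
      have hek : e * k₀ ∈ Subgroup.centralizer ({a, b} : Set G) := mul_mem (hEK he) hk₀
      have hcu : Commute u'' (e * k₀) := hVc u'' (hV ▸ hzV hu'') _ hek
      rw [map_mul, map_mul, map_inv, map_mul, hte, htk₀, htw, hz.1,
        show z * (e * k₀) * (u'' * w) * (z * (e * k₀))⁻¹ =
          z * (e * k₀ * u'' * w * (e * k₀)⁻¹) * z⁻¹ by group,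
        ← hcu.eq, show z * (u'' * (e * k₀) * w * (e * k₀)⁻¹) * z⁻¹ =
          z * (u'' * (e * k₀ * w * (e * k₀)⁻¹)) * z⁻¹ by group,
        (hVc z hz.2 _ (mul_mem (hEK (hE.hV (hzV hu''))) (hEK (hconjE _ hek w hw)))).eq,
        mul_inv_cancel_right, mul_inv_cancel_right]
      exact hu''
  -- `t` fixes the neighbours of `a`
  have hza : ∀ u ∈ Subgroup.zpowers a, u = 1 ∨ u = a := by
    intro u hu
    obtain ⟨i, rfl⟩ := Subgroup.mem_zpowers_iff.1 hu
    rcases Int.even_or_odd i with ⟨j, rfl⟩ | ⟨j, rfl⟩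
    · left
      rw [zpow_add, ← (Commute.refl a).mul_zpow, tt_mul_self hD ha, one_zpow]
    · right
      rw [zpow_add, zpow_one, two_mul, zpow_add, ← (Commute.refl a).mul_zpow, tt_mul_self hD ha,
        one_zpow, one_mul]
  have hfix : ∀ y ∈ nbr D a, t y = y := by
    intro y hy
    by_cases hyb : Commute y b
    · have hyK : y ∈ Subgroup.centralizer ({a, b} : Set G) :=
        mem_centralizer_pair.2 ⟨hy.2.2.symm, hyb⟩
      obtain ⟨e, he, k₀, hk₀, hk₀f, rfl⟩ := hdec y hyK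
      obtain ⟨u, hu, hte⟩ : ∃ u ∈ Subgroup.zpowers a, t e = u * e :=
        ⟨_, ht2 e he, by rw [inv_mul_cancel_right]⟩
      obtain ⟨u', hu', htk₀⟩ : ∃ u' ∈ Subgroup.zpowers a, t k₀ = u' * k₀ :=
        ⟨_, hk0 k₀ hk₀ hk₀f, by rw [inv_mul_cancel_right]⟩
      have hy' : t (e * k₀) = u * u' * (e * k₀) := by
        rw [map_mul, hte, htk₀, show u * e * (u' * k₀) = u * (e * u') * k₀ by group,
          ← (hVc u' (hV ▸ hzV hu') e (hEK he)).eq]
        group
      rcases hza _ (mul_mem hu hu') with h | h <;> rw [h] at hy'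
      · rw [hy', one_mul]
      · exfalso
        obtain ⟨x, hx, hxy⟩ : ∃ x ∈ nbr D a, ¬ Commute x (e * k₀) := by
          obtain ⟨M⟩ := m22_pointModel hG h22 ha
          exact M.exists_noncommute hy
        refine mul_not_mem_of_sep hD ha hy.1 hx.1 hy.2.2 hx.2.2 (fun h => hxy h.symm) ?_
        rw [← hy']
        exact m22_aut_mem hG hp h22 t hy.1
    · obtain ⟨e, he, hey⟩ := pair_transitive hG hp h22 ha hb hE hfa hfb hy hyb
      obtain ⟨u, hu, hte⟩ : ∃ u ∈ Subgroup.zpowers a, t e = u * e :=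
        ⟨_, ht2 e he, by rw [inv_mul_cancel_right]⟩
      rw [← hey, map_mul, map_mul, map_inv, htf, hte]
      rcases hza u hu with hu1 | hu1 <;> rw [hu1]
      · rw [one_mul]
      · have hy' : Commute a (e * f * e⁻¹) := hey.symm ▸ hy.2.2
        rw [show a * e * f * (a * e)⁻¹ = a * (e * f * e⁻¹) * a⁻¹ by group, hy'.eq,
          mul_inv_cancel_right]
  have hfixC : ∀ g ∈ Subgroup.closure (nbr D a), t g = g := by
    have h : Subgroup.closure (nbr D a) ≤ MonoidHom.eqLocus t.toMonoidHom (MonoidHom.id G) := by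
      rw [Subgroup.closure_le]
      exact hfix
    exact fun g hg => h hg
  -- a member not commuting with `a`
  obtain ⟨d, hd, had⟩ : ∃ d ∈ D, ¬ Commute a d := by
    by_contra h
    push Not at h
    refine tt_ne_one hD ha ?_
    have : a ∈ Subgroup.center G := by
      rw [Subgroup.mem_center_iff]
      intro g
      exact (commute_closure_iff.2 (fun x hx => (h x hx).symm) g
        (hG.2.2 ▸ Subgroup.mem_top g)).eq
    rwa [h22.1, Subgroup.mem_bot] at this
  have htd := m22_aut_mem hG hp h22 t hd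
  have hcase : t d = d ∨ t d = a * d * a := by
    rcases m22_line_determined43 hG hp h22 ha hd had htd fun x hx => by
      have := hx.2.2.2.symm.map t.toMonoidHom
      rwa [MulEquiv.coe_toMonoidHom, hfix x hx.1] at this with h | h | h
    · exact absurd (t.injective (h.trans hta.symm)) (fun e => had (e ▸ Commute.refl a))
    · exact Or.inl h
    · exact Or.inr h
  -- on all of `D`
  have hall : ∀ (w : G), (w = 1 ∨ w = a) → t d = w * d * w⁻¹ → ∀ x ∈ D, t x = w * x * w⁻¹ := by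
    intro w hw hwd x hx
    have hwy : ∀ y, Commute a y → w * y * w⁻¹ = y := fun y hy => by
      rcases hw with rfl | rfl
      · group
      · rw [hy.eq, mul_inv_cancel_right]
    by_cases hax : Commute a x
    · rw [hwy x hax]
      by_cases hxa : x = a
      · rw [hxa, hta]
      · exact hfix x ⟨hx, hxa, hax⟩
    · obtain ⟨g, hga, hgd⟩ := m22_noncommute_pair_conj43 hG hp h22 ha hd ha hx had hax
      have hgC : g ∈ Subgroup.closure (nbr D a) := by
        rw [← m22_centralizer_eq hG hp h22 ha, Subgroup.mem_centralizer_singleton_iff]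
        exact mul_inv_eq_iff_eq_mul.1 hga
      have hgw : Commute w g := by
        rcases hw with rfl | rfl
        · exact Commute.one_left g
        · exact (commute_of_mem_closure_nbr hgC).symm
      rw [← hgd, map_mul, map_mul, map_inv, hfixC g hgC, hwd,
        show g * (w * d * w⁻¹) * g⁻¹ = g * w * d * (g * w)⁻¹ by group, ← hgw.eq]
      group
  obtain ⟨w, hw⟩ : ∃ w, ∀ x ∈ D, t x = w * x * w⁻¹ := by
    rcases hcase with h | h
    · exact ⟨1, hall 1 (Or.inl rfl) (by rw [h]; group)⟩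
    · exact ⟨a, hall a (Or.inr rfl) (by rw [h, tt_inv hD ha])⟩
  refine ⟨e₀⁻¹ * w, MulEquiv.ext fun x => ?_⟩
  have h : ∀ x, t x = MulAut.conj w x := by
    have hle : Subgroup.closure D ≤
        MonoidHom.eqLocus t.toMonoidHom (MulAut.conj w).toMonoidHom := by
      rw [Subgroup.closure_le]
      intro y hy
      exact (hw y hy).trans (MulAut.conj_apply w y).symm
    exact fun y => hle (hG.2.2 ▸ Subgroup.mem_top y)
  have h2 := h x
  rw [htx, MulAut.conj_apply] at h2
  rw [MulAut.conj_apply, show e₀⁻¹ * w * x * (e₀⁻¹ * w)⁻¹ = e₀⁻¹ * (w * x * w⁻¹) * e₀ by group, ← h2]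
  group

end m22

end CfsgLib.ThreeTransp.Pair25
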