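import Mathlib
import Cfsg.Agent.ThreeTransp.M22PairRigid25
import Cfsg.Agent.ThreeTransp.M22PairLarge25
import Cfsg.Agent.LargeExtraspecial.Basic
import Cfsg.Agent.LargeExtraspecial.FourGroup
import Cfsg.Prelude.Def_MonsterType

/-!
Type M(22): the centralizer in the automorphism group of an inner involution given by a product of
two commuting members has a large extraspecial subgroup.
-/

set_option autoImplicit false

namespace CfsgLib.ThreeTransp.Pair25

open Cfsg CfsgLib.ThreeTransp.U62Point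
open scoped commutatorElement

universe u

theorem psu4_simple_data {F : Type} [Field F] [Fintype F] (hF : Fintype.card F = 4) :
    IsSimpleGroup (PSU 4 F 2) ∧ Nat.card (PSU 4 F 2) = 25920 ∧
      Function.Injective (MulAut.conj : PSU 4 F 2 →* MulAut (PSU 4 F 2)) := by
  obtain ⟨e⟩ := su4_equiv_psu4 hF
  have hs : IsSimpleGroup (PSU 4 F 2) := CfsgLib.Unitary.isSimpleGroup_PSU (PSU62.card_sq hF) (n := 4)
    (by norm_num) (fun h => absurd h.1 (by norm_num))
  refine ⟨hs, by rw [← Nat.card_congr e.toEquiv]; exact card_SU_four hF, ?_⟩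
  rw [injective_iff_map_eq_one]
  intro x hx
  obtain ⟨y, rfl⟩ := e.surjective x
  have hy : y ∈ Subgroup.center ↥(SU 4 F 2) := by
    rw [Subgroup.mem_center_iff]
    intro z
    have h := congrArg (fun φ : MulAut (PSU 4 F 2) => φ (e z)) hx
    simp only [MulAut.conj_apply, MulAut.one_apply] at h
    apply e.injective
    rw [map_mul, map_mul]
    exact (mul_inv_eq_iff_eq_mul.1 h).symm
  rw [center_SU_four hF, Subgroup.mem_bot] at hy
  rw [hy, map_one]

variable {G : Type u} [Group G] {D : Set G}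

section m22

variable [Finite G] (hG : IsThreeTranspositionGroup D) (hp : IsPrimitiveUnderConj D)
  (h22 : IsOfTypeM22 G D)
include hG hp h22

set_option maxHeartbeats 1600000 in
theorem m22_pair_aut_main (hA2 : Nat.card (MulAut G) = 2 * Nat.card G) {a b : G} (ha : a ∈ D)
    (hb : b ∈ nbr D a) (j : MulAut G) (hj : j = MulAut.conj (a * b)) (Q : Subgroup (MulAut G))
    (hQ : Q = (Cfsg.generalizedFittingSubgroup ↥(Subgroup.centralizer ({j} : Set (MulAut G)))).map
      (Subgroup.centralizer ({j} : Set (MulAut G))).subtype) :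
    Cfsg.IsLargeExtraspecial Q ∧ Nat.card Q = 2 ^ 11 ∧
      Q ≤ Subgroup.centralizer ({j} : Set (MulAut G)) ∧
      ∃ (_ : (Q.subgroupOf (Subgroup.centralizer ({j} : Set (MulAut G)))).Normal) (F : Type)
        (_ : Field F) (_ : Fintype F), Fintype.card F = 4 ∧
        Nonempty (↥(Subgroup.centralizer ({j} : Set (MulAut G))) ⧸
          Q.subgroupOf (Subgroup.centralizer ({j} : Set (MulAut G))) ≃* MulAut (Cfsg.PSU 4 F 2)) := by
  classical
  haveI : Fact (Nat.Prime 2) := ⟨Nat.prime_two⟩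
  haveI : Finite (MulAut G) :=
    Finite.of_injective (fun φ => (φ : G → G)) DFunLike.coe_injective
  have hD := hG.1
  have hnt := m22_noTwins hG h22
  have hab := hb.2.2
  have hne := Ne.symm hb.2.1
  have hinj : Function.Injective (MulAut.conj : G →* MulAut G) := by
    rw [injective_iff_map_eq_one]
    intro g hg
    have : g ∈ Subgroup.center G := by
      rw [Subgroup.mem_center_iff]
      intro h
      have e := congrArg (fun φ : MulAut G => φ h) hg
      simp only [MulAut.conj_apply, MulAut.one_apply] at e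
      exact (mul_inv_eq_iff_eq_mul.1 e).symm
    rwa [h22.1, Subgroup.mem_bot] at this
  obtain ⟨I, hI⟩ : ∃ I, I = (MulAut.conj : G →* MulAut G).range := ⟨_, rfl⟩
  have hcI : Nat.card ↥I = Nat.card G := by
    rw [hI]; exact (Nat.card_congr (MonoidHom.ofInjective hinj).toEquiv).symm
  have hIx : I.index = 2 := by
    have h := I.card_mul_index
    rw [hcI, hA2, mul_comm 2] at h
    exact Nat.eq_of_mul_eq_mul_left Nat.card_pos h
  have hconj : ∀ (x : MulAut G) (g : G), x * MulAut.conj g * x⁻¹ = MulAut.conj (x g) := by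
    intro x g
    ext y
    show x (MulAut.conj g (x⁻¹ y)) = MulAut.conj (x g) y
    rw [MulAut.conj_apply, MulAut.conj_apply, map_mul, map_mul, map_inv,
      show x (x⁻¹ y) = y by rw [← MulAut.mul_apply, mul_inv_cancel, MulAut.one_apply]]
  have hcommconj : ∀ (x : MulAut G) (g : G), x g = g → x * MulAut.conj g = MulAut.conj g * x :=
    fun x g h => by rw [← mul_inv_eq_iff_eq_mul, hconj, h]
  -- the groups
  obtain ⟨C, hC⟩ : ∃ C, C = Subgroup.centralizer ({a * b} : Set G) := ⟨_, rfl⟩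
  obtain ⟨K, hK⟩ : ∃ K, K = Subgroup.centralizer ({a, b} : Set G) := ⟨_, rfl⟩
  obtain ⟨E, hE⟩ := m22_pair_struct hG hp h22 ha hb K C hK hC
  subst hK
  obtain ⟨V, hV⟩ : ∃ V, V = Subgroup.closure ({a, b} : Set G) := ⟨_, rfl⟩
  have haV : a ∈ V := hV ▸ Subgroup.subset_closure (by simp)
  have hbV : b ∈ V := hV ▸ Subgroup.subset_closure (by simp)
  have haE : a ∈ E := hE.hV (hV ▸ haV)
  have hbE : b ∈ E := hE.hV (hV ▸ hbV)
  have hEK := hE.hEK
  have hKC := hE.le
  have hEC : E ≤ C := hEK.trans hKC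
  have hVc : ∀ v ∈ V, ∀ k ∈ Subgroup.centralizer ({a, b} : Set G), Commute v k := fun v hv k hk =>
    commute_closure_iff.2 (fun s hs => Subgroup.mem_centralizer_iff.1 hk s hs) v (hV ▸ hv)
  have hsqab : a * b * (a * b) = 1 := by
    rw [mul_assoc, ← mul_assoc b, ← hab.eq, mul_assoc a b b, tt_mul_self hD hb.1, mul_one,
      tt_mul_self hD ha]
  obtain ⟨Z, hZ⟩ : ∃ Z, Z = Subgroup.zpowers (a * b) := ⟨_, rfl⟩
  have memZ : ∀ z, z ∈ Z ↔ z = 1 ∨ z = a * b := by
    intro z
    rw [hZ]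
    constructor
    · intro h
      obtain ⟨k, rfl⟩ := Subgroup.mem_zpowers_iff.1 h
      rcases Int.even_or_odd k with ⟨i, rfl⟩ | ⟨i, rfl⟩
      · left; rw [zpow_add, ← (Commute.refl (a * b)).mul_zpow, hsqab, one_zpow]
      · right
        rw [zpow_add, zpow_one, two_mul, zpow_add, ← (Commute.refl (a * b)).mul_zpow, hsqab,
          one_zpow, one_mul]
    · rintro (rfl | rfl)
      exacts [one_mem _, Subgroup.mem_zpowers _]
  have hZV : Z ≤ V := hZ ▸ Subgroup.zpowers_le.2 (mul_mem haV hbV)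
  have hEsq : ∀ e ∈ E, e * e ∈ Z := fun e he => by
    rw [memZ, ← pow_two]; exact hE.sq e he
  have hEcm : ∀ e ∈ E, ∀ e' ∈ E, e * e' * e⁻¹ * e'⁻¹ ∈ Z := fun e he e' he' =>
    (memZ _).2 (hE.comm e he e' he')
  obtain ⟨CA, hCA⟩ : ∃ CA, CA = Subgroup.centralizer ({j} : Set (MulAut G)) := ⟨_, rfl⟩
  rw [← hCA] at hQ ⊢
  have memCA : ∀ x : MulAut G, x ∈ CA ↔ x (a * b) = a * b := by
    intro x
    rw [hCA, Subgroup.mem_centralizer_singleton_iff, ← mul_inv_eq_iff_eq_mul, hj, hconj]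
    exact hinj.eq_iff
  have hfact : ∀ x ∈ CA, (x a = a ∧ x b = b) ∨ (x a = b ∧ x b = a) := by
    intro x hx
    have hne' : x a ≠ x b := fun e => hne (x.injective e)
    have hc' : Commute (x a) (x b) := hab.map x.toMonoidHom
    have := pair_unique hD hnt (j := a * b) (l := [a, b]) (l' := [x a, x b])
      ⟨by simp [hne], rfl, by simp [ha, hb.1], by simp [hab, hab.symm], by simp⟩
      ⟨by simp [hne'], rfl,
        by simp [m22_aut_mem hG hp h22 x ha, m22_aut_mem hG hp h22 x hb.1],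
        by simp [hc', hc'.symm],
        by rw [List.prod_cons, List.prod_singleton, ← map_mul]; exact (memCA x).1 hx⟩
    simp only [List.mem_cons, List.not_mem_nil, or_false] at this
    rcases (this (x a)).2 (Or.inl rfl) with h1 | h1 <;>
      rcases (this (x b)).2 (Or.inr rfl) with h2 | h2
    · exact absurd (h1.trans h2.symm) hne'
    · exact Or.inl ⟨h1, h2⟩
    · exact Or.inr ⟨h1, h2⟩
    · exact absurd (h1.trans h2.symm) hne'
  have hxK : ∀ x ∈ CA, ∀ k ∈ Subgroup.centralizer ({a, b} : Set G),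
      x k ∈ Subgroup.centralizer ({a, b} : Set G) := by
    intro x hx k hk
    obtain ⟨h1, h2⟩ := mem_centralizer_pair.1 hk
    have e1 := h1.map x.toMonoidHom
    have e2 := h2.map x.toMonoidHom
    rw [MulEquiv.coe_toMonoidHom] at e1 e2
    rcases hfact x hx with ⟨f1, f2⟩ | ⟨f1, f2⟩ <;> rw [f1] at e1 <;> rw [f2] at e2
    exacts [mem_centralizer_pair.2 ⟨e1, e2⟩, mem_centralizer_pair.2 ⟨e2, e1⟩]
  have hxC : ∀ x ∈ CA, ∀ c ∈ C, x c ∈ C := by
    intro x hx c hc
    rw [hC, Subgroup.mem_centralizer_singleton_iff] at hc ⊢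
    have := congrArg x hc
    rwa [map_mul, map_mul x (a * b), (memCA x).1 hx] at this
  haveI := hE.normal
  have hE2 : IsPGroup 2 ↥E := (IsPGroup.iff_card (p := 2)).2 ⟨10, hE.card⟩
  have hxE : ∀ x ∈ CA, ∀ e ∈ E, x e ∈ E := by
    intro x hx e he
    obtain ⟨N, hN⟩ : ∃ N, N = (E.map x.toMonoidHom).subgroupOf C := ⟨_, rfl⟩
    have hNn : N.Normal := by
      refine ⟨fun n hn c => ?_⟩
      rw [hN, Subgroup.mem_subgroupOf] at hn ⊢
      obtain ⟨e', he', hen⟩ := hn
      have hc' : (x⁻¹ : MulAut G) (c : G) ∈ C := hxC _ (inv_mem hx) c c.2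
      refine ⟨_, hE.normal.conj_mem ⟨e', hEC he'⟩ he' ⟨_, hc'⟩, ?_⟩
      show x ((x⁻¹ : MulAut G) (c : G) * e' * ((x⁻¹ : MulAut G) (c : G))⁻¹) = _
      rw [map_mul, map_mul, map_inv, ← MulAut.mul_apply, mul_inv_cancel, MulAut.one_apply,
        show x e' = (n : G) from hen]
      rfl
    have hle : E.map x.toMonoidHom ≤ C := by
      rintro _ ⟨e', he', rfl⟩
      exact hxC x hx e' (hEC he')
    have hN2 : IsPGroup 2 ↥N := hN ▸ (hE2.map x.toMonoidHom).of_equiv
      (Subgroup.subgroupOfEquivOfLe hle).symm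
    have := hE.max N hNn hN2 (x := ⟨x e, hxC x hx e (hEC he)⟩)
      (hN ▸ ⟨e, he, rfl⟩)
    exact this
  -- an outer automorphism fixing `a` and `b`
  obtain ⟨s₀, hs₀I, hs₀a, hs₀b⟩ : ∃ s : MulAut G, s ∉ I ∧ s a = a ∧ s b = b := by
    obtain ⟨α, hα⟩ : ∃ α : MulAut G, α ∉ I := by
      by_contra h
      push Not at h
      have : I = ⊤ := eq_top_iff.2 fun x _ => h x
      rw [this, Subgroup.index_top] at hIx
      omega
    have hαb : α b ∈ nbr D (α a) := ⟨m22_aut_mem hG hp h22 α hb.1,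
      fun e => hb.2.1 (α.injective e), hab.map α.toMonoidHom⟩
    obtain ⟨g, hga, hgb⟩ := m22_pair_conj hG hp h22 (m22_aut_mem hG hp h22 α ha) hαb ha hb
    refine ⟨MulAut.conj g * α, fun h => hα ?_, by rw [MulAut.mul_apply, MulAut.conj_apply, hga],
      by rw [MulAut.mul_apply, MulAut.conj_apply, hgb]⟩
    exact (Subgroup.mul_mem_cancel_left I (hI ▸ ⟨g, rfl⟩ : MulAut.conj g ∈ I)).1 h
  have hs₀CA : s₀ ∈ CA := (memCA _).2 (by rw [map_mul, hs₀a, hs₀b])
  have hconjCA : ∀ g : G, MulAut.conj g ∈ CA ↔ g ∈ C := by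
    intro g
    rw [memCA, hC, Subgroup.mem_centralizer_singleton_iff, MulAut.conj_apply, mul_inv_eq_iff_eq_mul]
  -- the action on the pair group modulo `E`
  obtain ⟨F, instF, instFT, hF, Φ, hΦs, hΦk, hAcard⟩ := hE.quot
  obtain ⟨hPs, hPcard, hPinj⟩ := psu4_simple_data hF
  haveI := hPs
  haveI : Finite (MulAut (PSU 4 F 2)) :=
    Finite.of_injective (fun e => (e : PSU 4 F 2 → PSU 4 F 2)) DFunLike.coe_injective
  have hKcard : Nat.card ↥(Subgroup.centralizer ({a, b} : Set G)) = 25920 * 2 ^ 10 := by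
    have := card_centralizer_pair hG hp h22 ha hb
    omega
  have hKn : ((Subgroup.centralizer ({a, b} : Set G)).subgroupOf C).Normal :=
    Subgroup.normal_of_index_eq_two hE.index
  obtain ⟨R, hR⟩ : ∃ R, R = ((Subgroup.centralizer ({a, b} : Set G)).subgroupOf C).map Φ := ⟨_, rfl⟩
  haveI hRn : R.Normal := hR ▸ hKn.map Φ hΦs
  have hRi : R.index = 2 := by
    rw [hR, Subgroup.index_map_eq _ hΦs (hΦk.le.trans fun c hc => hEK hc), hE.index]
  have hInnR : (MulAut.conj : PSU 4 F 2 →* _).range = R := by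
    obtain ⟨N, hN⟩ : ∃ N, N = R.comap (MulAut.conj : PSU 4 F 2 →* _) := ⟨_, rfl⟩
    haveI : N.Normal := hN ▸ hRn.comap _
    have hcR : Nat.card ↥R = 25920 := by
      have := R.card_mul_index
      rw [hRi, hAcard] at this
      omega
    have hcI' : Nat.card ↥(MulAut.conj : PSU 4 F 2 →* _).range = 25920 := by
      rw [← hPcard]; exact (Nat.card_congr (MonoidHom.ofInjective hPinj).toEquiv).symm
    refine Subgroup.eq_of_le_of_card_ge ?_ (by omega)
    rintro _ ⟨x, rfl⟩
    rcases (Subgroup.Normal.eq_bot_or_eq_top (H := N) inferInstance) with h | h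
    · exfalso
      -- the whole group would embed in the quotient of order two
      have hki : Function.Injective ((QuotientGroup.mk' R).comp (MulAut.conj : PSU 4 F 2 →* _)) := by
        rw [← MonoidHom.ker_eq_bot_iff, ← h, hN]
        ext y
        simp [MonoidHom.mem_ker, QuotientGroup.eq_one_iff]
      have := Nat.card_le_card_of_injective _ hki
      rw [hPcard, ← Subgroup.index_eq_card, hRi] at this
      omega
    · have hx : x ∈ N := h ▸ Subgroup.mem_top x
      rw [hN] at hx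
      exact hx
  have hθex : ∀ k : ↥(Subgroup.centralizer ({a, b} : Set G)),
      ∃ p : PSU 4 F 2, MulAut.conj p = Φ ⟨k, hKC k.2⟩ := by
    intro k
    have : Φ ⟨k, hKC k.2⟩ ∈ R := hR ▸ ⟨⟨k, hKC k.2⟩, k.2, rfl⟩
    rw [← hInnR] at this
    exact this
  choose θf hθf using hθex
  obtain ⟨θ₀, hθ₀⟩ : ∃ θ₀ : ↥(Subgroup.centralizer ({a, b} : Set G)) →* PSU 4 F 2,
      ∀ k, MulAut.conj (θ₀ k) = Φ ⟨k, hKC k.2⟩ :=
    ⟨MonoidHom.mk' θf fun k l => hPinj (by
      rw [map_mul, hθf, hθf, hθf, ← map_mul]; rfl), hθf⟩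
  have hθker : ∀ k, θ₀ k = 1 ↔ (k : G) ∈ E := by
    intro k
    rw [← hPinj.eq_iff, hθ₀, map_one, ← MonoidHom.mem_ker, hΦk, Subgroup.mem_subgroupOf]
  have hθsurj : Function.Surjective θ₀ := by
    intro p
    have : MulAut.conj p ∈ R := hInnR ▸ ⟨p, rfl⟩
    rw [hR] at this
    obtain ⟨c, hc, hcp⟩ := this
    exact ⟨⟨c, hc⟩, hPinj (by rw [hθ₀]; exact hcp)⟩
  obtain ⟨KA, hKA⟩ : ∃ KA : Subgroup ↥CA,
      KA = ((Subgroup.centralizer ({a, b} : Set G)).map (MulAut.conj : G →* MulAut G)).subgroupOf CA :=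
    ⟨_, rfl⟩
  have hKle : (Subgroup.centralizer ({a, b} : Set G)).map (MulAut.conj : G →* MulAut G) ≤ CA := by
    rintro _ ⟨k, hk, rfl⟩
    exact (hconjCA k).2 (hKC hk)
  haveI hKAn : KA.Normal := by
    refine ⟨fun n hn x => ?_⟩
    rw [hKA, Subgroup.mem_subgroupOf] at hn ⊢
    obtain ⟨k, hk, hkn⟩ := hn
    refine ⟨(x : MulAut G) k, hxK x x.2 k hk, ?_⟩
    rw [Subgroup.coe_mul, Subgroup.coe_mul, Subgroup.coe_inv, ← hkn, hconj]
  obtain ⟨θ, hθdef⟩ : ∃ θ : ↥KA →* PSU 4 F 2, ∀ (z : ↥KA) (k : G)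
      (hk : k ∈ Subgroup.centralizer ({a, b} : Set G)),
      ((z : ↥CA) : MulAut G) = MulAut.conj k → θ z = θ₀ ⟨k, hk⟩ := by
    obtain ⟨e, he⟩ : ∃ e : ↥KA →* ↥(Subgroup.centralizer ({a, b} : Set G)),
        ∀ z, MulAut.conj ((e z : G)) = ((z : ↥CA) : MulAut G) := by
      have hex : ∀ z : ↥KA, ∃ k : ↥(Subgroup.centralizer ({a, b} : Set G)),
          MulAut.conj (k : G) = ((z : ↥CA) : MulAut G) := fun z => by
        obtain ⟨k, hk, hkz⟩ := (hKA ▸ z.2 : (z : ↥CA) ∈ (((Subgroup.centralizer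
          ({a, b} : Set G)).map (MulAut.conj : G →* MulAut G)).subgroupOf CA))
        exact ⟨⟨k, hk⟩, hkz⟩
      choose ef hef using hex
      exact ⟨MonoidHom.mk' ef fun z w => Subtype.ext (hinj (by
        rw [Subgroup.coe_mul (Subgroup.centralizer ({a, b} : Set G)), map_mul, hef, hef, hef]; rfl)),
        hef⟩
    refine ⟨θ₀.comp e, fun z k hk hzk => ?_⟩
    exact congrArg θ₀ (Subtype.ext (hinj ((he z).trans hzk)))
  have hKAmem : ∀ (k : G) (hk : k ∈ Subgroup.centralizer ({a, b} : Set G)),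
      (⟨MulAut.conj k, (hconjCA k).2 (hKC hk)⟩ : ↥CA) ∈ KA := fun k hk => by
    rw [hKA, Subgroup.mem_subgroupOf]; exact ⟨k, hk, rfl⟩
  have hKArep : ∀ z : ↥KA, ∃ k ∈ Subgroup.centralizer ({a, b} : Set G),
      ((z : ↥CA) : MulAut G) = MulAut.conj k := fun z => by
    obtain ⟨k, hk, hkz⟩ := (hKA ▸ z.2 : (z : ↥CA) ∈ (((Subgroup.centralizer
      ({a, b} : Set G)).map (MulAut.conj : G →* MulAut G)).subgroupOf CA))
    exact ⟨k, hk, hkz.symm⟩
  have hθs' : Function.Surjective θ := fun p => by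
    obtain ⟨k, rfl⟩ := hθsurj p
    exact ⟨⟨_, hKAmem k k.2⟩, hθdef _ k k.2 rfl⟩
  obtain ⟨ψ, hψ⟩ := exists_inv_action KA θ hθs' fun x z hz => by
    obtain ⟨k, hk, hzk⟩ := hKArep z
    rw [hθdef z k hk hzk, hθker] at hz
    rw [hθdef _ ((x : MulAut G) k) (hxK x x.2 k hk) (by
      rw [MulAut.conjNormal_apply, Subgroup.coe_mul, Subgroup.coe_mul, Subgroup.coe_inv, hzk, hconj]),
      hθker]
    exact hxE x x.2 k hz
  have hψk : ∀ (x : ↥CA) (k : G) (hk : k ∈ Subgroup.centralizer ({a, b} : Set G)),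
      ψ x (θ₀ ⟨k, hk⟩) = θ₀ ⟨(x : MulAut G) k, hxK x x.2 k hk⟩ := by
    intro x k hk
    rw [← hθdef ⟨_, hKAmem k hk⟩ k hk rfl, hψ,
      hθdef _ ((x : MulAut G) k) (hxK x x.2 k hk) (by
        rw [MulAut.conjNormal_apply, Subgroup.coe_mul, Subgroup.coe_mul, Subgroup.coe_inv, hconj])]
  obtain ⟨ι, hι⟩ : ∃ ι : ↥C →* ↥CA, ∀ c : ↥C, ((ι c : ↥CA) : MulAut G) = MulAut.conj (c : G) :=
    ⟨MonoidHom.mk' (fun c => ⟨MulAut.conj (c : G), (hconjCA _).2 c.2⟩) fun c d =>
      Subtype.ext (map_mul MulAut.conj (c : G) (d : G)), fun _ => rfl⟩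
  have hιi : Function.Injective ι := fun c d h => Subtype.ext (hinj (by rw [← hι, ← hι, h]))
  have hψι : ∀ c : ↥C, ψ (ι c) = Φ c := by
    intro c
    refine MulEquiv.ext fun p => ?_
    obtain ⟨⟨k, hk⟩, rfl⟩ := hθsurj p
    refine hPinj ?_
    rw [hψk, hθ₀]
    have e : MulAut.conj (Φ c (θ₀ ⟨k, hk⟩)) = Φ c * MulAut.conj (θ₀ ⟨k, hk⟩) * (Φ c)⁻¹ := by
      ext y
      simp [MulAut.mul_apply]
    rw [e, hθ₀, ← map_mul, ← map_inv, ← map_mul]
    refine congrArg Φ (Subtype.ext ?_)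
    show ((ι c : ↥CA) : MulAut G) k = _
    rw [hι, MulAut.conj_apply]
    rfl
  have hψs : Function.Surjective ψ := fun φ => by
    obtain ⟨c, rfl⟩ := hΦs φ
    exact ⟨ι c, hψι c⟩
  -- orders
  have hCcard : Nat.card ↥C = 51840 * 2 ^ 10 := by
    have h := Subgroup.card_mul_index ((Subgroup.centralizer ({a, b} : Set G)).subgroupOf C)
    rw [hE.index, Nat.card_congr (Subgroup.subgroupOfEquivOfLe hKC).toEquiv, hKcard] at h
    omega
  have hιr : ι.range = I.subgroupOf CA := by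
    ext x
    rw [Subgroup.mem_subgroupOf, hI, MonoidHom.mem_range, MonoidHom.mem_range]
    constructor
    · rintro ⟨c, rfl⟩; exact ⟨c, (hι c).symm⟩
    · rintro ⟨g, hg⟩
      exact ⟨⟨g, (hconjCA g).1 (hg ▸ x.2)⟩, Subtype.ext (by rw [hι]; exact hg)⟩
  have hmm := fun x y : MulAut G => Subgroup.mul_mem_iff_of_index_two (a := x) (b := y) hIx
  have hCAcard : Nat.card ↥CA = 2 * (51840 * 2 ^ 10) := by
    have h1 : (I.subgroupOf CA).index = 2 := by
      rw [Subgroup.index_eq_two_iff]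
      refine ⟨⟨s₀, hs₀CA⟩, fun x => ?_⟩
      simp only [Subgroup.mem_subgroupOf, Subgroup.coe_mul, hmm]
      by_cases h : (x : MulAut G) ∈ I <;> simp [h, hs₀I, Xor]
    have h2 := (I.subgroupOf CA).card_mul_index
    rw [h1, ← hιr, ← Nat.card_congr (MonoidHom.ofInjective hιi).toEquiv, hCcard] at h2
    omega
  have hkercard : Nat.card ↥ψ.ker = 2 ^ 11 := by
    have h := Subgroup.card_eq_card_quotient_mul_card_subgroup ψ.ker
    rw [hCAcard, Nat.card_congr (QuotientGroup.quotientKerEquivOfSurjective ψ hψs).toEquiv,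
      hAcard] at h
    omega
  have hker2 : IsPGroup 2 ↥ψ.ker := (IsPGroup.iff_card (p := 2)).2 ⟨11, hkercard⟩
  -- elements of the kernel
  have hEker : ∀ e : G, ∀ he : e ∈ E, ι ⟨e, hEC he⟩ ∈ ψ.ker := fun e he => by
    rw [MonoidHom.mem_ker, hψι, ← MonoidHom.mem_ker, hΦk]
    exact he
  have hinner : ∀ q ∈ ψ.ker, (q : MulAut G) ∈ I → ∃ e ∈ E, (q : MulAut G) = MulAut.conj e := by
    intro q hq hqI
    have : q ∈ ι.range := by rw [hιr]; exact hqI
    obtain ⟨c, rfl⟩ := this
    rw [MonoidHom.mem_ker, hψι, ← MonoidHom.mem_ker, hΦk] at hq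
    exact ⟨c, hq, hι c⟩
  have hsqI : ∀ x : MulAut G, x * x ∈ I := fun x => by rw [hmm]
  have hqK : ∀ q ∈ ψ.ker, ∀ k ∈ Subgroup.centralizer ({a, b} : Set G),
      (q : MulAut G) k * k⁻¹ ∈ E := by
    intro q hq k hk
    have h := hψk q k hk
    rw [MonoidHom.mem_ker.1 hq, MulAut.one_apply] at h
    have h2 := (hθker (⟨_, hxK q q.2 k hk⟩ * ⟨k, hk⟩⁻¹)).1 (by
      rw [map_mul, map_inv, ← h, mul_inv_cancel])
    exact h2
  have hqsq : ∀ q ∈ ψ.ker, ∀ e ∈ E,
      (q : MulAut G) ((q : MulAut G) e) * e⁻¹ ∈ Subgroup.closure ({a, b} : Set G) := by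
    intro q hq e he
    obtain ⟨g, hg, hqg⟩ := hinner (q * q) (mul_mem hq hq) (by rw [Subgroup.coe_mul]; exact hsqI _)
    rw [← MulAut.mul_apply, ← Subgroup.coe_mul, hqg, MulAut.conj_apply, ← hV]
    exact hZV (hEcm g hg e he)
  have hdich : ∀ q ∈ ψ.ker,
      (q : MulAut G) ∈ I ∨ ((q : MulAut G) a = b ∧ (q : MulAut G) b = a) := by
    intro q hq
    rcases hfact q q.2 with ⟨h1, h2⟩ | h
    · left
      obtain ⟨g, hg⟩ := pair_rigid hG hp h22 ha hb hE q h1 h2 (hqK q hq) (hqsq q hq)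
      rw [hI]
      exact ⟨g, hg.symm⟩
    · exact Or.inr h
  have hqZ : ∀ q ∈ ψ.ker, ∀ e ∈ E, (q : MulAut G) e * e⁻¹ ∈ Z := by
    intro q hq e he
    rcases hdich q hq with h | ⟨h1, h2⟩
    · obtain ⟨g, hg, hqg⟩ := hinner q hq h
      rw [hqg, MulAut.conj_apply]
      exact hEcm g hg e he
    · have hVimg : ∀ v ∈ Subgroup.closure ({a, b} : Set G),
          (q : MulAut G) v * v⁻¹ ∈ Z ∧ (q : MulAut G) v ∈ Subgroup.closure ({a, b} : Set G) := by
        intro v hv
        have key : (q : MulAut G) v * v⁻¹ ∈ Z := by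
          rcases (pair_mem_V hD ha hb.1 hab).1 hv with h | h | h | h <;> subst v
          · simp
          · rw [h1, tt_inv hD ha, ← hab.eq]; exact (memZ _).2 (Or.inr rfl)
          · rw [h2, tt_inv hD hb.1]; exact (memZ _).2 (Or.inr rfl)
          · rw [map_mul, h1, h2, ← hab.eq, mul_inv_cancel]; exact one_mem _
        refine ⟨key, ?_⟩
        have := mul_mem (hV ▸ hZV key : (q : MulAut G) v * v⁻¹ ∈ Subgroup.closure ({a, b} : Set G)) hv
        rwa [inv_mul_cancel_right] at this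
      have hmod := pair_aut_mod_V hG hp h22 ha hb hE q (hqK q hq) (fun v hv => (hVimg v hv).2)
        (hqsq q hq)
      refine pair_aut_mod_sub hG hp h22 ha hb hE q Z (hV ▸ hZV) ?_ (fun v hv => (hVimg v hv).1) hmod
        ?_ e he
      · intro v hv w hw hv' hw'
        have cases : ∀ x ∈ Subgroup.closure ({a, b} : Set G), x ∉ Z → x = a ∨ x = b := by
          intro x hx hx'
          rcases (pair_mem_V hD ha hb.1 hab).1 hx with h | h | h | h
          · exact absurd ((memZ x).2 (Or.inl h)) hx'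
          · exact Or.inl h
          · exact Or.inr h
          · exact absurd ((memZ x).2 (Or.inr h)) hx'
        rw [memZ]
        rcases cases v hv hv' with h | h <;> subst v <;> rcases cases w hw hw' with h | h <;> subst w
        · exact Or.inl (tt_mul_self hD ha)
        · exact Or.inr rfl
        · exact Or.inr hab.eq.symm
        · exact Or.inl (tt_mul_self hD hb.1)
      · intro k hk w hw hw'
        obtain ⟨e', he', htk⟩ : ∃ e' ∈ E, (q : MulAut G) k = e' * k :=
          ⟨_, hqK q hq k hk, by rw [inv_mul_cancel_right]⟩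
        obtain ⟨z, hz, htw⟩ : ∃ z ∈ Z, (q : MulAut G) w = z * w :=
          ⟨_, hw', by rw [inv_mul_cancel_right]⟩
        have hzV := hZV hz
        have hkw : k * w * k⁻¹ ∈ E :=
          hE.normal.conj_mem ⟨w, hEC hw⟩ hw ⟨k, hKC hk⟩
        rw [map_mul, map_mul, map_inv, htk, htw,
          show e' * k * (z * w) * (e' * k)⁻¹ * (k * w * k⁻¹)⁻¹ =
            e' * (k * z) * w * k⁻¹ * e'⁻¹ * (k * w * k⁻¹)⁻¹ by group,
          ← (hVc z hzV k hk).eq,
          show e' * (z * k) * w * k⁻¹ * e'⁻¹ * (k * w * k⁻¹)⁻¹ =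
            e' * z * e'⁻¹ * (e' * (k * w * k⁻¹) * e'⁻¹ * (k * w * k⁻¹)⁻¹) by group,
          ← (hVc z hzV e' (hEK he')).eq, mul_inv_cancel_right]
        exact mul_mem hz (hEcm e' he' _ hkw)
  obtain ⟨q₀, hq₀, hq₀I⟩ : ∃ q ∈ ψ.ker, (q : MulAut G) ∉ I := by
    by_contra h
    push Not at h
    have hle : ψ.ker ≤ (E.subgroupOf C).map ι := fun q hq => by
      obtain ⟨e, he, hqe⟩ := hinner q hq (h q hq)
      exact ⟨⟨e, hEC he⟩, he, Subtype.ext (by rw [hι]; exact hqe.symm)⟩
    have h1 := Subgroup.card_le_of_le hle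
    rw [hkercard, ← Nat.card_congr (Subgroup.equivMapOfInjective _ ι hιi).toEquiv,
      Nat.card_congr (Subgroup.subgroupOfEquivOfLe hEC).toEquiv, hE.card] at h1
    norm_num at h1
  have hq₀s : (q₀ : MulAut G) a = b ∧ (q₀ : MulAut G) b = a := (hdich q₀ hq₀).resolve_left hq₀I
  -- the centre of `E`
  have hcenE : ∀ g ∈ E, (∀ e ∈ E, Commute g e) → g ∈ V := by
    intro g hg hgc
    by_contra hgV
    obtain ⟨W, hW⟩ : ∃ W, W = E ⊓ Subgroup.centralizer (E : Set G) := ⟨_, rfl⟩
    have hmemW : ∀ x, x ∈ W ↔ x ∈ E ∧ ∀ e ∈ E, Commute x e := fun x => by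
      rw [hW, Subgroup.mem_inf, Subgroup.mem_centralizer_iff]
      exact and_congr_right fun _ => forall₂_congr fun e _ => eq_comm
    have hWE := pair_invariant_top hG hp h22 ha hb hE W (fun x hx => ((hmemW x).1 hx).1)
      (fun v hv => (hmemW v).2 ⟨hE.hV hv, fun e he => hVc v (hV ▸ hv) e (hEK he)⟩)
      (fun k hk w hw => by
        obtain ⟨h1, h2⟩ := (hmemW w).1 hw
        refine (hmemW _).2 ⟨hE.normal.conj_mem ⟨w, hEC h1⟩ h1 ⟨k, hKC hk⟩, fun e he => ?_⟩
        have he' : k⁻¹ * e * k ∈ E := by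
          have := hE.normal.conj_mem ⟨e, hEC he⟩ he ⟨k⁻¹, inv_mem (hKC hk)⟩
          rw [Subgroup.mem_subgroupOf] at this
          simpa using this
        have := (commute_conj_iff' (g := k)).2 (h2 _ he')
        simpa [mul_assoc] using this)
      ⟨g, (hmemW g).2 ⟨hg, hgc⟩, hV ▸ hgV⟩
    obtain ⟨M, hME, -, -, hMx, hMc⟩ := hE.split
    have hMcom : ∀ x y : ↥M, x * y = y * x := fun x y => Subtype.ext (by
      have hx : (x : G) ∈ W := hWE.symm ▸ hME x.2
      exact ((hmemW _).1 hx).2 y (hME y.2))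
    have htop : Subgroup.center ↥M = ⊤ :=
      eq_top_iff.2 fun x _ => Subgroup.mem_center_iff.2 fun y => hMcom y x
    have := hMx.2
    rw [htop, Subgroup.card_top, hMc] at this
    norm_num at this
  -- the subgroup `Q`
  obtain ⟨Q', hQ'⟩ : ∃ Q', Q' = ψ.ker.map CA.subtype := ⟨_, rfl⟩
  have memQ : ∀ x : MulAut G, x ∈ Q' ↔ ∃ q ∈ ψ.ker, (q : MulAut G) = x := fun x => by
    rw [hQ', Subgroup.mem_map]; rfl
  have hQCA : Q' ≤ CA := by rw [hQ']; exact Subgroup.map_subtype_le _
  have hQsub : Q'.subgroupOf CA = ψ.ker := by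
    rw [hQ']; exact Subgroup.comap_map_eq_self_of_injective CA.subtype_injective _
  have hQcard : Nat.card ↥Q' = 2 ^ 11 := by
    rw [hQ', ← Nat.card_congr (Subgroup.equivMapOfInjective _ _ CA.subtype_injective).toEquiv,
      hkercard]
  have hQp : IsPGroup 2 ↥Q' := (IsPGroup.iff_card (p := 2)).2 ⟨11, hQcard⟩
  have hQE : ∀ e ∈ E, MulAut.conj e ∈ Q' := fun e he =>
    (memQ _).2 ⟨_, hEker e he, hι _⟩
  have hQform : ∀ x ∈ Q', (∃ e ∈ E, x = MulAut.conj e) ∨
      (x ∉ I ∧ x a = b ∧ x b = a) := by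
    intro x hx
    obtain ⟨q, hq, rfl⟩ := (memQ x).1 hx
    by_cases h : (q : MulAut G) ∈ I
    · exact Or.inl (hinner q hq h)
    · exact Or.inr ⟨h, (hdich q hq).resolve_left h⟩
  have hQZ : ∀ x ∈ Q', ∀ e ∈ E, x e * e⁻¹ ∈ Z := by
    intro x hx e he
    obtain ⟨q, hq, rfl⟩ := (memQ x).1 hx
    exact hqZ q hq e he
  have hjQ : j ∈ Q' := hj ▸ hQE _ (mul_mem haE hbE)
  have hZfix : ∀ x ∈ CA, ∀ z ∈ Z, x z = z := fun x hx z hz => by
    rcases (memZ z).1 hz with rfl | rfl
    exacts [map_one x, (memCA x).1 hx]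
  have hjc : ∀ x ∈ CA, x * j = j * x := fun x hx => hj ▸ hcommconj x _ ((memCA x).1 hx)
  have hjj : j * j = 1 := by rw [hj, ← map_mul, hsqab, map_one]
  have hj1 : j ≠ 1 := fun h => hne (by
    rw [hj, ← map_one (MulAut.conj : G →* MulAut G)] at h
    rw [← tt_inv hD hb.1]
    exact eq_inv_of_mul_eq_one_left (hinj h))
  -- central elements
  have hcent : ∀ x ∈ CA, (∀ e ∈ E, x e = e) → ∀ k ∈ Subgroup.centralizer ({a, b} : Set G),
      x k * k⁻¹ ∈ E := by
    intro x hx hfix k hk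
    have hkc : k⁻¹ * x k ∈ E := by
      refine hE.self (Subgroup.mem_inf.2 ⟨mul_mem (inv_mem (hKC hk)) (hKC (hxK x hx k hk)), ?_⟩)
      refine Subgroup.mem_centralizer_iff.2 fun e he => ?_
      have hke : k * e * k⁻¹ ∈ E := hE.normal.conj_mem ⟨e, hEC he⟩ he ⟨k, hKC hk⟩
      have h1 := hfix _ hke
      rw [map_mul, map_mul, map_inv, hfix e he] at h1
      calc e * (k⁻¹ * x k) = k⁻¹ * (k * e * k⁻¹) * x k := by group
        _ = k⁻¹ * x k * e := by rw [← h1]; group
    have := hE.normal.conj_mem ⟨_, hEC hkc⟩ hkc ⟨k, hKC hk⟩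
    rw [Subgroup.mem_subgroupOf] at this
    simpa [mul_assoc] using this
  have hzc : ∀ x ∈ CA, (∀ y ∈ Q', x * y = y * x) → x = 1 ∨ x = j := by
    intro x hx hxQ
    have hfixE : ∀ e ∈ E, x e = e := fun e he => hinj (by
      rw [← hconj, hxQ _ (hQE e he), mul_inv_cancel_right])
    have hxker : (⟨x, hx⟩ : ↥CA) ∈ ψ.ker := by
      rw [MonoidHom.mem_ker]
      refine MulEquiv.ext fun p => ?_
      obtain ⟨⟨k, hk⟩, rfl⟩ := hθsurj p
      rw [hψk, MulAut.one_apply, ← mul_inv_eq_one, ← map_inv, ← map_mul, hθker]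
      exact hcent x hx hfixE k hk
    rcases hQform x ((memQ x).2 ⟨_, hxker, rfl⟩) with ⟨e, he, rfl⟩ | ⟨-, h1, -⟩
    · have heV : e ∈ V := hcenE e he fun e' he' => by
        have h := hfixE e' he'
        rw [MulAut.conj_apply] at h
        exact mul_inv_eq_iff_eq_mul.1 h
      have hfq : (q₀ : MulAut G) e = e := hinj (by
        rw [← hconj, ← hxQ _ ((memQ _).2 ⟨q₀, hq₀, rfl⟩), mul_inv_cancel_right])
      rcases (pair_mem_V hD ha hb.1 hab).1 (hV ▸ heV) with h | h | h | h
      · exact Or.inl (by rw [h, map_one])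
      · rw [h, hq₀s.1] at hfq; exact absurd hfq.symm hne
      · rw [h, hq₀s.2] at hfq; exact absurd hfq hne
      · exact Or.inr (by rw [hj, h])
    · exact absurd ((hfixE a haE).symm.trans h1) hne
  have hcenQ : ∀ z : ↥Q', z ∈ Subgroup.center ↥Q' ↔ (z : MulAut G) = 1 ∨ (z : MulAut G) = j := by
    intro z
    constructor
    · intro hz
      exact hzc z (hQCA z.2) fun y hy =>
        (congrArg Subtype.val (Subgroup.mem_center_iff.1 hz ⟨y, hy⟩)).symm
    · intro h
      rw [Subgroup.mem_center_iff]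
      intro m
      refine Subtype.ext ?_
      show (m : MulAut G) * z = z * m
      rcases h with e | e <;> rw [e]
      · rw [mul_one, one_mul]
      · exact hjc m (hQCA m.2)
  have hcZ : ∀ z ∈ Z, MulAut.conj z = 1 ∨ MulAut.conj z = j := fun z hz => by
    rcases (memZ z).1 hz with rfl | rfl
    exacts [Or.inl (map_one _), Or.inr hj.symm]
  have hQcomm : ∀ x ∈ Q', ∀ y ∈ Q', x * y * x⁻¹ * y⁻¹ = 1 ∨ x * y * x⁻¹ * y⁻¹ = j := by
    have step : ∀ x ∈ Q', ∀ e ∈ E, x * MulAut.conj e * x⁻¹ * (MulAut.conj e)⁻¹ = 1 ∨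
        x * MulAut.conj e * x⁻¹ * (MulAut.conj e)⁻¹ = j := fun x hx e he => by
      rw [hconj, ← map_inv, ← map_mul]
      exact hcZ _ (hQZ x hx e he)
    intro x hx y hy
    rcases hQform y hy with ⟨e, he, rfl⟩ | ⟨hyI, -, -⟩
    · exact step x hx e he
    rcases hQform x hx with ⟨e, he, rfl⟩ | ⟨hxI, -, -⟩
    · have hinv : ∀ w : MulAut G, w = 1 ∨ w = j → w⁻¹ = 1 ∨ w⁻¹ = j := by
        rintro w (rfl | rfl)
        exacts [Or.inl inv_one, Or.inr (inv_eq_of_mul_eq_one_right hjj)]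
      have h := hinv _ (step y hy e he)
      simpa [mul_assoc] using h
    · have hm : x⁻¹ * y ∈ Q' := mul_mem (inv_mem hx) hy
      have hmI : x⁻¹ * y ∈ I := by
        rw [hmm, inv_mem_iff]; exact iff_of_false hxI hyI
      rcases hQform _ hm with ⟨e, he, hxy⟩ | ⟨h, -, -⟩
      · have hy' : y = x * MulAut.conj e := by rw [← hxy, mul_inv_cancel_left]
        rw [hy']
        have hs := step x hx e he
        rw [show x * (x * MulAut.conj e) * x⁻¹ * (x * MulAut.conj e)⁻¹ =
          x * (x * MulAut.conj e * x⁻¹ * (MulAut.conj e)⁻¹) * x⁻¹ by group]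
        rcases hs with h | h <;> rw [h]
        · exact Or.inl (by group)
        · exact Or.inr (by rw [hjc x (hQCA hx), mul_inv_cancel_right])
      · exact absurd hmI h
  have hQsq : ∀ x ∈ Q', x * x = 1 ∨ x * x = j := by
    intro x hx
    rcases hQform x hx with ⟨e, he, rfl⟩ | ⟨-, hxa, -⟩
    · rw [← map_mul]; exact hcZ _ (hEsq e he)
    rcases hQform _ (mul_mem hx hx) with ⟨g, hg, hxg⟩ | ⟨h, -, -⟩
    · have hgV : g ∈ V := hcenE g hg fun e he => by
        obtain ⟨z, hz, hxe⟩ : ∃ z ∈ Z, x e = z * e :=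
          ⟨_, hQZ x hx e he, by rw [inv_mul_cancel_right]⟩
        have h2 : g * e * g⁻¹ = e := by
          rw [← MulAut.conj_apply, ← hxg, MulAut.mul_apply, hxe, map_mul, hZfix x (hQCA hx) z hz,
            hxe, ← mul_assoc]
          rcases (memZ z).1 hz with rfl | rfl
          · rw [one_mul, one_mul]
          · rw [hsqab, one_mul]
        exact mul_inv_eq_iff_eq_mul.1 h2
      have hfx : x g = g := hinj (by
        rw [← hconj, ← hxg]; group)
      rw [hxg]
      rcases (pair_mem_V hD ha hb.1 hab).1 (hV ▸ hgV) with h | h | h | h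
      · exact Or.inl (by rw [h, map_one])
      · rw [h, hxa] at hfx; exact absurd hfx.symm hne
      · rw [h, ← hxa] at hfx
        exact absurd ((x.injective hfx).symm.trans hxa) hne
      · exact Or.inr (by rw [hj, h])
    · exact absurd (hsqI x) h
  have hQx : Cfsg.IsExtraspecial 2 ↥Q' := by
    refine CfsgLib.PGroup.isExtraspecial_of hQp ?_ ?_ ?_ ?_
    · have hset : (Subgroup.center ↥Q' : Set ↥Q') = {1, ⟨j, hjQ⟩} := by
        ext z
        rw [SetLike.mem_coe, hcenQ, Set.mem_insert_iff, Set.mem_singleton_iff]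
        exact or_congr ⟨fun h => Subtype.ext h, fun h => by rw [h]; rfl⟩
          ⟨fun h => Subtype.ext h, fun h => by rw [h]⟩
      rw [← SetLike.coe_sort_coe, Nat.card_coe_set_eq, hset, Set.ncard_pair]
      exact fun h => hj1 (congrArg Subtype.val h).symm
    · refine ⟨⟨(q₀ : MulAut G), (memQ _).2 ⟨q₀, hq₀, rfl⟩⟩, ⟨MulAut.conj a, hQE a haE⟩, fun h => ?_⟩
      have h' := congrArg Subtype.val h
      simp only [Subgroup.coe_mul] at h'
      rw [← mul_inv_eq_iff_eq_mul, hconj, hinj.eq_iff, hq₀s.1] at h'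
      exact hne h'.symm
    · intro x y
      rw [hcenQ]
      exact hQcomm x x.2 y y.2
    · intro x
      rw [hcenQ, SubmonoidClass.coe_pow, pow_two]
      exact hQsq x x.2
  -- the generalized Fitting subgroup
  have hcore : Cfsg.pCore 2 ↥CA = ψ.ker := by
    refine le_antisymm (sSup_le ?_) (CfsgLib.LocalP.le_pCore (MonoidHom.normal_ker ψ) hker2)
    rintro N ⟨hN, hN2⟩ n hn
    obtain ⟨L, hL⟩ : ∃ L, L = N.map ψ := ⟨_, rfl⟩
    haveI hLn : L.Normal := hL ▸ hN.map ψ hψs
    have hL2 : IsPGroup 2 ↥L := hL ▸ hN2.map ψ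
    obtain ⟨M, hM⟩ : ∃ M, M = L.comap (MulAut.conj : PSU 4 F 2 →* _) := ⟨_, rfl⟩
    haveI : M.Normal := hM ▸ hLn.comap _
    have hM1 : M = ⊥ := by
      refine (Subgroup.Normal.eq_bot_or_eq_top (H := M) inferInstance).resolve_right fun h => ?_
      have h2 : IsPGroup 2 ↥M := hM ▸ hL2.comap_of_injective _ hPinj
      rw [h] at h2
      obtain ⟨i, hi⟩ := IsPGroup.iff_card.1 h2
      rw [Subgroup.card_top, hPcard] at hi
      have : (3 : ℕ) ∣ 2 := Nat.prime_three.dvd_of_dvd_pow (hi ▸ (by norm_num : 3 ∣ 25920))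
      norm_num at this
    have hnL : ψ n ∈ L := hL ▸ Subgroup.mem_map_of_mem ψ hn
    rw [MonoidHom.mem_ker]
    refine MulEquiv.ext fun p => ?_
    have hp' : ψ n p * p⁻¹ ∈ M := by
      rw [hM, Subgroup.mem_comap]
      have e : MulAut.conj (ψ n p * p⁻¹) =
          ψ n * (MulAut.conj p * (ψ n)⁻¹ * (MulAut.conj p)⁻¹) := by
        ext y
        simp [MulAut.mul_apply, MulAut.conj_apply, mul_assoc]
      rw [e]
      exact mul_mem hnL (hLn.conj_mem _ (inv_mem hnL) _)
    rw [hM1, Subgroup.mem_bot, mul_inv_eq_one] at hp'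
    rw [MulAut.one_apply]
    exact hp'
  have hFS : Cfsg.generalizedFittingSubgroup ↥CA = ψ.ker := by
    rw [CfsgLib.CharPClimb.generalizedFitting_eq_pCore (p := 2) ?_, hcore]
    rw [hcore]
    intro c hc
    have hc' : ∀ y ∈ Q', (c : MulAut G) * y = y * c := by
      intro y hy
      obtain ⟨q, hq, rfl⟩ := (memQ y).1 hy
      exact (congrArg Subtype.val (Subgroup.mem_centralizer_iff.1 hc q hq)).symm
    have hcQ : (c : MulAut G) ∈ Q' := by
      rcases hzc c c.2 hc' with h | h <;> rw [h]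
      exacts [one_mem _, hjQ]
    rw [← hQsub]
    exact hcQ
  have hQeq : Q = Q' := by rw [hQ, hFS, hQ']
  subst hQeq
  -- large
  have hzOf : ∀ x, x ∈ CfsgLib.LargeExtraspecial.zOf Q ↔ x = 1 ∨ x = j := by
    intro x
    constructor
    · intro h
      obtain ⟨hx, hc⟩ := CfsgLib.LargeExtraspecial.mem_zOf.1 h
      exact hzc x (hQCA hx) fun y hy => (hc y hy).symm
    · intro h
      have hxQ : x ∈ Q := by
        rcases h with rfl | rfl
        exacts [one_mem _, hjQ]
      exact ⟨⟨x, hxQ⟩, (hcenQ ⟨x, hxQ⟩).2 h, rfl⟩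
  have hCQ : Subgroup.centralizer (Q : Set (MulAut G)) = CfsgLib.LargeExtraspecial.zOf Q := by
    refine le_antisymm (fun x hx => ?_) (CfsgLib.LargeExtraspecial.zOf_le_centralizer Q)
    have hxj := Subgroup.mem_centralizer_iff.1 hx j hjQ
    have hxCA : x ∈ CA := by
      rw [hCA, Subgroup.mem_centralizer_singleton_iff]; exact hxj.symm
    exact (hzOf x).2 (hzc x hxCA fun y hy => (Subgroup.mem_centralizer_iff.1 hx y hy).symm)
  have hcZQ : Subgroup.centralizer (CfsgLib.LargeExtraspecial.zOf Q : Set (MulAut G)) = CA := by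
    ext x
    rw [hCA, Subgroup.mem_centralizer_singleton_iff, Subgroup.mem_centralizer_iff]
    constructor
    · intro h
      exact (h j ((hzOf j).2 (Or.inr rfl))).symm
    · intro h z hz
      rcases (hzOf z).1 hz with rfl | rfl
      · rw [mul_one, one_mul]
      · exact h.symm
  have hNQ : Subgroup.centralizer (CfsgLib.LargeExtraspecial.zOf Q : Set (MulAut G)) ≤
      Subgroup.normalizer (Q : Set (MulAut G)) := by
    rw [hcZQ]
    intro x hx
    rw [Subgroup.mem_normalizer_iff]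
    intro y
    constructor
    · intro hy
      obtain ⟨q, hq, rfl⟩ := (memQ y).1 hy
      exact (memQ _).2 ⟨_, (MonoidHom.normal_ker ψ).conj_mem q hq ⟨x, hx⟩, by simp⟩
    · intro hy
      obtain ⟨q, hq, hqe⟩ := (memQ _).1 hy
      refine (memQ _).2 ⟨_, (MonoidHom.normal_ker ψ).conj_mem q hq ⟨x⁻¹, inv_mem hx⟩, ?_⟩
      simp [hqe, mul_assoc]
  have hlarge : Cfsg.IsLargeExtraspecial Q := by
    refine ⟨hQx, hCQ, hNQ, fun S hS hQS => ?_⟩
    have hSc := Subgroup.le_normalizer_iff.1 hQS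
    have hfpf : ∀ x ∈ S, x * j = j * x → x = 1 := by
      intro x hx hxj
      have h0 : S ⊓ CA = ⊥ := by
        refine CfsgLib.LargeExtraspecial.eq_bot_of_le_centralizer_zOf hQp hCQ hNQ
          (hS.of_dvd_nat (Subgroup.card_dvd_of_le inf_le_left)) ?_ (by rw [hcZQ]; exact inf_le_right)
        refine Subgroup.le_normalizer_iff.2 fun q hq y hy => ?_
        exact ⟨hSc q hq y hy.1, CA.mul_mem (CA.mul_mem (hQCA hq) hy.2) (inv_mem (hQCA hq))⟩
      refine (Subgroup.eq_bot_iff_forall _).1 h0 x (Subgroup.mem_inf.2 ⟨hx, ?_⟩)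
      rw [hCA, Subgroup.mem_centralizer_singleton_iff]
      exact hxj
    have hji : j⁻¹ = j := inv_eq_of_mul_eq_one_right hjj
    have hSI : ∀ x ∈ S, x ∈ I := by
      intro x hx
      obtain ⟨n, hn⟩ := id hS
      have h1 : x ^ Nat.card ↥S = 1 := by
        have := congrArg Subtype.val (pow_card_eq_one' (x := (⟨x, hx⟩ : ↥S)))
        rwa [SubmonoidClass.coe_pow] at this
      have h2 : x = (x ^ (n + 1)) * (x ^ (n + 1)) := by
        rw [← pow_add, show n + 1 + (n + 1) = Nat.card ↥S + 1 by omega, pow_succ, h1, one_mul]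
      rw [h2]; exact hsqI _
    -- fixed points of the conjugation by `c`, for `c ∈ {a, b}`
    have hfix : ∀ c d : G, c ∈ D → d ∈ nbr D c → c * d = a * b →
        PairStruct c d (Subgroup.centralizer ({c, d} : Set G)) C E →
        (∀ x, x ∈ S → MulAut.conj c * x = x * MulAut.conj c → x = 1) := by
      intro c d hc hd hcd hEcd x hx hxc
      have hcd' : MulAut.conj c * MulAut.conj d = j := by rw [← map_mul, hcd, hj]
      obtain ⟨T, hT⟩ : ∃ T, T = (S ⊓ Subgroup.centralizer ({MulAut.conj c} : Set (MulAut G))).comap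
          (MulAut.conj : G →* MulAut G) := ⟨_, rfl⟩
      have memT : ∀ g, g ∈ T ↔ MulAut.conj g ∈ S ∧ Commute g c := by
        intro g
        rw [hT, Subgroup.mem_comap, Subgroup.mem_inf, Subgroup.mem_centralizer_singleton_iff,
          ← map_mul, ← map_mul, hinj.eq_iff]
        rfl
      have hcE : c ∈ E := hEcd.hV (Subgroup.subset_closure (by simp))
      have hdE : d ∈ E := hEcd.hV (Subgroup.subset_closure (by simp))
      have hcQ := hQE c hcE
      have hdQ := hQE d hdE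
      have hjS : ∀ y ∈ S, j * y * j ∈ S := fun y hy => by
        have := hSc j hjQ y hy
        rwa [hji] at this
      have hjconj : ∀ g : G, j * MulAut.conj g * j = MulAut.conj (c * d * g * (c * d)⁻¹) := fun g => by
        conv_lhs => rw [hj, ← hcd]; arg 2; rw [← inv_eq_of_mul_eq_one_right (show c * d * (c * d) = 1 by
          rw [hcd]; exact hsqab)]
        rw [← map_mul, ← map_mul]
      have hjT : ∀ g ∈ T, c * d * g * (c * d)⁻¹ ∈ T := by
        intro g hg
        obtain ⟨h1, h2⟩ := (memT g).1 hg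
        refine (memT _).2 ⟨hjconj g ▸ hjS _ h1, ?_⟩
        have hcc : Commute (c * d) c := ((Commute.refl c).mul_left hd.2.2.symm)
        exact (hcc.mul_left h2).mul_left hcc.inv_left
      obtain ⟨τ, hτ⟩ : ∃ τ : ↥T → ↥T, ∀ g : ↥T,
          (τ g : G) = (g : G)⁻¹ * (c * d * g * (c * d)⁻¹) :=
        ⟨fun g => g⁻¹ * ⟨_, hjT g g.2⟩, fun g => by simp⟩
      have hτi : Function.Injective τ := by
        intro g g' h
        have h' := congrArg Subtype.val h
        rw [hτ, hτ] at h'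
        obtain ⟨m, hm⟩ : ∃ m, (g' : G) * (g : G)⁻¹ = m := ⟨_, rfl⟩
        have hmT : m ∈ T := hm ▸ mul_mem g'.2 (inv_mem g.2)
        have hmf : c * d * m * (c * d)⁻¹ = m := by
          calc c * d * m * (c * d)⁻¹ =
              (c * d * g' * (c * d)⁻¹) * (c * d * g * (c * d)⁻¹)⁻¹ := by rw [← hm]; group
            _ = (g' : G) * ((g' : G)⁻¹ * (c * d * g' * (c * d)⁻¹)) *
                (c * d * g * (c * d)⁻¹)⁻¹ := by group
            _ = m := by rw [← h', ← hm]; group
        have := hfpf _ ((memT m).1 hmT).1 (by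
          rw [hj, ← hcd, ← map_mul, ← map_mul, ← mul_inv_eq_iff_eq_mul.1 hmf])
        rw [← map_one (MulAut.conj : G →* MulAut G), hinj.eq_iff] at this
        rw [this, mul_inv_eq_one] at hm
        exact Subtype.ext hm.symm
      have hinvT : ∀ g ∈ T, c * d * g * (c * d)⁻¹ = g⁻¹ := by
        intro g hg
        obtain ⟨h, hh⟩ := (Finite.injective_iff_surjective.1 hτi) ⟨g, hg⟩
        have hg' := congrArg Subtype.val hh
        rw [hτ] at hg'
        simp only at hg'
        rw [← hg', mul_inv_rev (h : G)⁻¹, inv_inv, show (c * d)⁻¹ = c * d from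
          inv_eq_of_mul_eq_one_right (hcd ▸ hsqab)]
        have h2 : c * d * (c * d) = 1 := hcd ▸ hsqab
        calc c * d * ((h : G)⁻¹ * (c * d * h * (c * d))) * (c * d)
            = c * d * (h : G)⁻¹ * (c * d) * (h : G) * (c * d * (c * d)) := by group
          _ = (c * d * (h : G) * (c * d))⁻¹ * h := by
              rw [h2, mul_one, mul_inv_rev (c * d * (h : G)), mul_inv_rev (c * d),
                inv_eq_of_mul_eq_one_right h2]
              group
      have hbot : T = ⊥ := by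
        refine pair_odd_trivial hG hp h22 hc hd hEcd T ?_ (fun g hg => ((memT g).1 hg).2)
          (fun g hg => ?_) (fun e he g hg => ?_) fun g hg g' hg' => ?_
        · refine hS.of_dvd_nat ?_
          have hle : T.map (MulAut.conj : G →* MulAut G) ≤ S := by
            rintro _ ⟨g, hg, rfl⟩; exact ((memT g).1 hg).1
          rw [Nat.card_congr (Subgroup.equivMapOfInjective T _ hinj).toEquiv]
          exact Subgroup.card_dvd_of_le hle
        · have h := hinvT g hg
          have hgc : Commute g c := ((memT g).1 hg).2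
          have hcdd : Commute c (d * g * d⁻¹) := (hd.2.2.mul_right hgc.symm).mul_right hd.2.2.inv_right
          rw [show c * d * g * (c * d)⁻¹ = c * (d * g * d⁻¹) * c⁻¹ by group, hcdd.eq,
            mul_inv_cancel_right] at h
          exact h
        · obtain ⟨h1, h2⟩ := (memT g).1 hg
          refine (memT _).2 ⟨?_, ?_⟩
          · rw [map_mul, map_mul, map_inv]; exact hSc _ (hQE e he) _ h1
          · have hec : Commute e c := (mem_centralizer_pair.1 (hEcd.hEK he)).1
            exact (hec.mul_left h2).mul_left hec.inv_left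
        · have h1 := hinvT _ (mul_mem hg hg')
          rw [show c * d * (g * g') * (c * d)⁻¹ =
            (c * d * g * (c * d)⁻¹) * (c * d * g' * (c * d)⁻¹) by group, hinvT g hg, hinvT g' hg',
            ← mul_inv_rev, inv_inj] at h1
          exact h1.symm
      obtain ⟨g, rfl⟩ : ∃ g, MulAut.conj g = x := by
        have := hSI x hx; rw [hI] at this; exact this
      have hgT : g ∈ T := (memT g).2 ⟨hx, hinj (by rw [map_mul, map_mul]; exact hxc.symm)⟩
      rw [hbot, Subgroup.mem_bot] at hgT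
      rw [hgT, map_one]
    have hca : ∀ x ∈ S, MulAut.conj a * x = x * MulAut.conj a → x = 1 :=
      hfix a b ha hb rfl hE
    have hcb : ∀ x ∈ S, MulAut.conj b * x = x * MulAut.conj b → x = 1 := by
      intro x hx hxb
      obtain ⟨hx1, hxa⟩ : q₀.1 * x * q₀.1⁻¹ ∈ S ∧ MulAut.conj a * (q₀.1 * x * q₀.1⁻¹) =
          q₀.1 * x * q₀.1⁻¹ * MulAut.conj a := by
        refine ⟨hSc _ ((memQ _).2 ⟨q₀, hq₀, rfl⟩) x hx, ?_⟩
        rw [← hq₀s.2, ← hconj]
        simp only [mul_assoc, inv_mul_cancel_left]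
        rw [← mul_assoc (MulAut.conj b), hxb, mul_assoc]
      have := hca _ hx1 hxa
      rwa [mul_inv_eq_one, mul_eq_left] at this
    have hconjsq : ∀ c ∈ D, MulAut.conj c * MulAut.conj c = 1 := fun c hc => by
      rw [← map_mul, tt_mul_self hD hc, map_one]
    have hkey := CfsgLib.LargeExtraspecial.commute_of_four_group hjj (hconjsq a ha)
      (hjc _ (hQCA (hQE a haE))).symm hS (fun y hy => by
        have := hSc j hjQ y hy; rwa [hji] at this)
      (fun y hy => by
        have := hSc _ (hQE a haE) y hy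
        rwa [inv_eq_of_mul_eq_one_right (hconjsq a ha)] at this)
      (fun y hy hay => by
        have : y = 1 := hca y hy (by
          nth_rw 2 [← hay]
          rw [mul_assoc _ (MulAut.conj a), hconjsq a ha, mul_one])
        rw [this, mul_one, hjj])
      (fun y hy hy' => by
        have e1 : MulAut.conj a * j = MulAut.conj b := by
          rw [hj, ← map_mul, ← mul_assoc, tt_mul_self hD ha, one_mul]
        have e2 : j * MulAut.conj a = MulAut.conj b := by rw [hjc _ (hQCA (hQE a haE)) |>.symm, e1]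
        rw [e1, e2] at hy'
        have : y = 1 := hcb y hy (by
          nth_rw 2 [← hy']
          rw [mul_assoc _ (MulAut.conj b), hconjsq b hb.1, mul_one])
        rw [this, mul_one, hjj])
    refine (Subgroup.eq_bot_iff_forall S).2 fun x hx => hfpf x hx ?_
    have h := congrArg (fun t => j * t) (hkey x hx)
    simp only [← mul_assoc, hjj, one_mul] at h
    exact h
  refine ⟨hlarge, hQcard, hQCA, ?_⟩
  haveI hn : (Q.subgroupOf CA).Normal := hQsub ▸ MonoidHom.normal_ker ψ
  exact ⟨hn, F, instF, instFT, hF, ⟨(QuotientGroup.quotientMulEquivOfEq hQsub).trans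
    (QuotientGroup.quotientKerEquivOfSurjective ψ hψs)⟩⟩

end m22

end CfsgLib.ThreeTransp.Pair25
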